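import Mathlib
import Cfsg.Agent.Lib.Helper19.SqFree.Defs

/-!
# Tools for groups with square-free class sizes: the subgroup `[V, g]` for `V` abelian normal
-/

namespace Cfsg.Agent.Lib.Helper26.SqFree

open Subgroup Cfsg.Agent.Lib.Helper19.SqFree Cfsg.Agent.Lib.Helper69

variable {G : Type*} [Group G]

/-- `v ↦ v g v⁻¹ g⁻¹` on an abelian normal subgroup -/
def cHom (V : Subgroup G) [V.Normal] (hV : ∀ a ∈ V, ∀ b ∈ V, a * b = b * a) (g : G) : V →* G :=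
  MonoidHom.mk' (fun v => (v : G) * g * (v : G)⁻¹ * g⁻¹) (by
    intro v w
    have hn : V.Normal := inferInstance
    have hw' : g * (w : G)⁻¹ * g⁻¹ ∈ V := hn.conj_mem _ (V.inv_mem w.2) g
    have hv' : g * (v : G)⁻¹ * g⁻¹ ∈ V := hn.conj_mem _ (V.inv_mem v.2) g
    have hc := hV ((w : G) * (g * (w : G)⁻¹ * g⁻¹)) (V.mul_mem w.2 hw') (g * (v : G)⁻¹ * g⁻¹) hv'
    show ((v * w : V) : G) * g * ((v * w : V) : G)⁻¹ * g⁻¹ = _
    rw [Subgroup.coe_mul]
    calc (v : G) * (w : G) * g * ((v : G) * (w : G))⁻¹ * g⁻¹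
        = (v : G) * (((w : G) * (g * (w : G)⁻¹ * g⁻¹)) * (g * (v : G)⁻¹ * g⁻¹)) := by group
      _ = (v : G) * ((g * (v : G)⁻¹ * g⁻¹) * ((w : G) * (g * (w : G)⁻¹ * g⁻¹))) := by rw [hc]
      _ = _ := by group)

/-- the subgroup `[V, g] = {v g v⁻¹ g⁻¹ : v ∈ V}` -/
def LL (V : Subgroup G) [V.Normal] (hV : ∀ a ∈ V, ∀ b ∈ V, a * b = b * a) (g : G) : Subgroup G :=
  (cHom V hV g).range

variable {V : Subgroup G} [V.Normal] {hV : ∀ a ∈ V, ∀ b ∈ V, a * b = b * a}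

theorem mem_LL {g x : G} : x ∈ LL V hV g ↔ ∃ v ∈ V, v * g * v⁻¹ * g⁻¹ = x := by
  constructor
  · rintro ⟨v, rfl⟩
    exact ⟨v, v.2, rfl⟩
  · rintro ⟨v, hv, rfl⟩
    exact ⟨⟨v, hv⟩, rfl⟩

omit hV in
theorem comm_mem {v : G} (hv : v ∈ V) (g : G) : v * g * v⁻¹ * g⁻¹ ∈ V := by
  have hn : V.Normal := inferInstance
  have := V.mul_mem hv (hn.conj_mem _ (V.inv_mem hv) g)
  convert this using 1
  group

theorem LL_le (g : G) : LL V hV g ≤ V := by
  intro x hx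
  obtain ⟨v, hv, rfl⟩ := mem_LL.1 hx
  exact comm_mem hv g

theorem card_LL (g : G) : Nat.card (LL V hV g) = (centralizer ({g} : Set G)).relIndex V := by
  unfold LL
  rw [← index_ker, relIndex]
  congr 1
  ext v
  rw [MonoidHom.mem_ker, mem_subgroupOf, mem_cent_singleton]
  show (v : G) * g * (v : G)⁻¹ * g⁻¹ = 1 ↔ _
  constructor
  · intro h
    have : (v : G) * g = ((v : G) * g * (v : G)⁻¹ * g⁻¹) * (g * v) := by group
    rw [this, h, one_mul]
  · intro h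
    rw [h]; group

theorem relIndex_dvd_prime [Finite G] {p : ℕ} [Fact p.Prime] (h : SF G) (N : Subgroup G) [N.Normal]
    (hN : IsPGroup p N) (g : G) : (centralizer ({g} : Set G)).relIndex N ∣ p := by
  have hp : p.Prime := Fact.out
  obtain ⟨n, hn⟩ := IsPGroup.iff_card.1 hN
  have h1 : (centralizer ({g} : Set G)).relIndex N ∣ p ^ n := by
    rw [← hn]; exact (centralizer ({g} : Set G)).relIndex_dvd_card N
  obtain ⟨m, -, hm⟩ := (Nat.dvd_prime_pow hp).1 h1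
  have h2 := relIndex_cent_dvd N g
  rcases Nat.lt_or_ge m 2 with h3 | h3
  · rw [hm]
    interval_cases m
    · simp
    · simp
  · exfalso
    apply h.not_sq_dvd hp g
    refine dvd_trans ?_ h2
    rw [hm]
    exact pow_dvd_pow p h3

theorem card_LL_dvd [Finite G] {p : ℕ} [Fact p.Prime] (h : SF G) (hVp : IsPGroup p V) (g : G) :
    Nat.card (LL V hV g) ∣ p := by
  rw [card_LL]; exact relIndex_dvd_prime h V hVp g

theorem le_or_inf_eq_bot {X : Subgroup G} [Finite X] (hX : (Nat.card X).Prime) (Y : Subgroup G) :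
    X ≤ Y ∨ X ⊓ Y = ⊥ := by
  have h1 : Nat.card (X ⊓ Y : Subgroup G) ∣ Nat.card X := Subgroup.card_dvd_of_le inf_le_left
  rcases (Nat.dvd_prime hX).1 h1 with h | h
  · right; exact Subgroup.card_eq_one.1 h
  · left
    have := Subgroup.eq_of_le_of_card_ge (inf_le_left : X ⊓ Y ≤ X) h.ge
    exact this ▸ inf_le_right

theorem card_eq_of_dvd_of_ne_bot {p : ℕ} [Fact p.Prime] {X : Subgroup G} (h : Nat.card X ∣ p)
    (hX : X ≠ ⊥) : Nat.card X = p := by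
  rcases (Nat.dvd_prime Fact.out).1 h with h | h
  · exact absurd (Subgroup.card_eq_one.1 h) hX
  · exact h

/-- a nontrivial `g`-invariant subgroup of `V` on which `g` acts without fixed points is `[V,g]`
if the latter has order dividing `p` -/
theorem eq_LL_of_fpf [Finite G] {p : ℕ} [Fact p.Prime] {g : G} (hL : Nat.card (LL V hV g) ∣ p)
    {X : Subgroup G} (hXV : X ≤ V) (hX : X ≠ ⊥) (hnorm : ∀ x ∈ X, g * x * g⁻¹ ∈ X)
    (hfpf : ∀ x ∈ X, x * g = g * x → x = 1) : X = LL V hV g := by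
  have hmem : ∀ x : X, (x : G) * g * (x : G)⁻¹ * g⁻¹ ∈ X := by
    intro x
    have := X.mul_mem x.2 (hnorm _ (X.inv_mem x.2))
    convert this using 1
    group
  let f : X → X := fun x => ⟨(x : G) * g * (x : G)⁻¹ * g⁻¹, hmem x⟩
  have hinj : Function.Injective f := by
    intro x y hxy
    have h1 : (x : G) * g * (x : G)⁻¹ * g⁻¹ = (y : G) * g * (y : G)⁻¹ * g⁻¹ := congrArg Subtype.val hxy
    have h2 : ((y : G)⁻¹ * x) * g = g * ((y : G)⁻¹ * x) := by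
      have h3 : (x : G) * g * (x : G)⁻¹ = (y : G) * g * (y : G)⁻¹ := mul_right_cancel h1
      calc ((y : G)⁻¹ * x) * g = (y : G)⁻¹ * ((x : G) * g * (x : G)⁻¹) * x := by group
        _ = (y : G)⁻¹ * ((y : G) * g * (y : G)⁻¹) * x := by rw [h3]
        _ = _ := by group
    have h4 := hfpf _ (X.mul_mem (X.inv_mem y.2) x.2) h2
    apply Subtype.ext
    have : (x : G) = y * ((y : G)⁻¹ * x) := by group
    rw [this, h4, mul_one]
  have hsurj : Function.Surjective f := Finite.injective_iff_surjective.1 hinj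
  have hle : X ≤ LL V hV g := by
    intro x hx
    obtain ⟨y, hy⟩ := hsurj ⟨x, hx⟩
    exact mem_LL.2 ⟨y, hXV y.2, congrArg Subtype.val hy⟩
  have hLne : LL V hV g ≠ ⊥ := by
    intro h0
    rw [h0] at hle
    exact hX (le_bot_iff.1 hle)
  have h1 := card_eq_of_dvd_of_ne_bot hL hLne
  have h2 := card_eq_of_dvd_of_ne_bot ((Subgroup.card_dvd_of_le hle).trans hL) hX
  exact Subgroup.eq_of_le_of_card_ge hle (by rw [h1, h2])

/-- `[V, c g] = [V, g]` elementwise if `c` centralizes `V` -/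
theorem comm_mul_left_of_cent {c g v : G} (hc : ∀ w ∈ V, c * w = w * c) (hv : v ∈ V) :
    v * (c * g) * v⁻¹ * (c * g)⁻¹ = v * g * v⁻¹ * g⁻¹ := by
  have h1 : v * g * v⁻¹ * g⁻¹ ∈ V := comm_mem hv g
  have h2 := hc _ h1
  have h3 := hc _ hv
  calc v * (c * g) * v⁻¹ * (c * g)⁻¹ = (v * c) * g * v⁻¹ * g⁻¹ * c⁻¹ := by group
    _ = (c * v) * g * v⁻¹ * g⁻¹ * c⁻¹ := by rw [h3]
    _ = (c * (v * g * v⁻¹ * g⁻¹)) * c⁻¹ := by group
    _ = ((v * g * v⁻¹ * g⁻¹) * c) * c⁻¹ := by rw [h2]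
    _ = _ := by group

theorem conj_mem_LL {g x : G} (y : G) (hx : x ∈ LL V hV g) :
    y * x * y⁻¹ ∈ LL V hV (y * g * y⁻¹) := by
  obtain ⟨v, hv, rfl⟩ := mem_LL.1 hx
  have hn : V.Normal := inferInstance
  refine mem_LL.2 ⟨y * v * y⁻¹, hn.conj_mem _ hv y, ?_⟩
  group

theorem LL_ne_bot {g v : G} (hv : v ∈ V) (hne : v * g ≠ g * v) : LL V hV g ≠ ⊥ := by
  intro h0
  have h1 : v * g * v⁻¹ * g⁻¹ ∈ LL V hV g := mem_LL.2 ⟨v, hv, rfl⟩
  rw [h0, mem_bot] at h1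
  apply hne
  have : v * g = (v * g * v⁻¹ * g⁻¹) * (g * v) := by group
  rw [this, h1, one_mul]

/-- the coprime trick -/
theorem eq_one_of_comm_commute {p : ℕ} [Fact p.Prime] {x k : G} (hk : ¬ p ∣ orderOf k)
    (hp : ∃ n : ℕ, (x * k * x⁻¹ * k⁻¹) ^ p ^ n = 1)
    (hc : (x * k * x⁻¹ * k⁻¹) * k = k * (x * k * x⁻¹ * k⁻¹)) : x * k * x⁻¹ * k⁻¹ = 1 := by
  set t := x * k * x⁻¹ * k⁻¹ with ht
  obtain ⟨n, hn⟩ := hp
  have h1 : x * k * x⁻¹ = t * k := by rw [ht]; group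
  have h2 : (x * k * x⁻¹) ^ orderOf k = 1 := by
    rw [conj_pow, pow_orderOf_eq_one]; group
  rw [h1, (show Commute t k from hc).mul_pow, pow_orderOf_eq_one, mul_one] at h2
  have hcop : (p ^ n).Coprime (orderOf k) :=
    Nat.Coprime.pow_left n ((Nat.Prime.coprime_iff_not_dvd Fact.out).2 hk)
  have := pow_gcd_eq_one.mpr ⟨hn, h2⟩
  rwa [hcop.gcd_eq_one, pow_one] at this

end Cfsg.Agent.Lib.Helper26.SqFree
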