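import Mathlib
import Cfsg.Agent.Lib.Helper26.SqFreeTools

/-!
# Q2 of S4130: a solvable group with square-free class sizes has a normal subgroup of prime order
inside every nontrivial normal subgroup
-/

namespace Cfsg.Agent.Lib.Helper26.SqFree

open Subgroup Cfsg.Agent.Lib.Helper19.SqFree Cfsg.Agent.Lib.Helper69

variable {G : Type*} [Group G]

theorem exists_min_normal [Finite G] (R : Subgroup G) [R.Normal] (hR : R ≠ ⊥) :
    ∃ V : Subgroup G, V.Normal ∧ V ≤ R ∧ V ≠ ⊥ ∧
      ∀ W : Subgroup G, W.Normal → W ≤ V → W ≠ ⊥ → W = V := by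
  obtain ⟨V, hV⟩ := exists_minimal_of_wellFoundedLT
    (fun V : Subgroup G => V.Normal ∧ V ≤ R ∧ V ≠ ⊥) ⟨R, inferInstance, le_rfl, hR⟩
  refine ⟨V, hV.1.1, hV.1.2.1, hV.1.2.2, fun W hW hWV hW0 => ?_⟩
  exact le_antisymm hWV (hV.2 ⟨hW, hWV.trans hV.1.2.1, hW0⟩ hWV)

theorem exists_last_derived (hs : Group.IsSolvable G) (C : Subgroup G) (hC : C ≠ ⊤) :
    ∃ A : Subgroup G, A.Normal ∧ ¬ A ≤ C ∧ ⁅A, A⁆ ≤ C := by
  classical
  obtain ⟨n, hn⟩ := hs.solvable
  have hex : ∃ i, derivedSeries G i ≤ C := ⟨n, by rw [hn]; exact bot_le⟩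
  have h0 : Nat.find hex ≠ 0 := by
    intro h0
    have := Nat.find_spec hex
    rw [h0, derivedSeries_zero] at this
    exact hC (top_le_iff.1 this)
  obtain ⟨j, hj⟩ := Nat.exists_eq_succ_of_ne_zero h0
  refine ⟨derivedSeries G j, inferInstance, Nat.find_min hex (by omega), ?_⟩
  have := Nat.find_spec hex
  rw [hj] at this
  exact this

theorem exists_normal_prime_card_le [Finite G] (hs : Group.IsSolvable G) (h : SF G)
    (R : Subgroup G) [R.Normal] (hR : R ≠ ⊥) :
    ∃ N : Subgroup G, N.Normal ∧ N ≤ R ∧ (Nat.card N).Prime := by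
  obtain ⟨V, hVn, hVR, hV0, hmin⟩ := exists_min_normal R hR
  have := hVn
  -- `V` is abelian
  have hVab : ∀ a ∈ V, ∀ b ∈ V, a * b = b * a := by
    have h1 : ⁅V, V⁆ < V := Group.IsSolvable.commutator_lt_of_ne_bot hV0
    have h2 : ⁅V, V⁆ = ⊥ := by
      by_contra h3
      exact h1.ne (hmin _ inferInstance h1.le h3)
    have h3 := Subgroup.commutator_eq_bot_iff_le_centralizer.1 h2
    intro a ha b hb
    exact (Subgroup.mem_centralizer_iff.1 (h3 ha) b hb).symm
  -- `V` has exponent `p`
  have hcard : Nat.card V ≠ 1 := fun h1 => hV0 (Subgroup.card_eq_one.1 h1)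
  obtain ⟨p, hp, hpd⟩ := Nat.exists_prime_and_dvd hcard
  have : Fact p.Prime := ⟨hp⟩
  obtain ⟨x, hx⟩ := exists_prime_orderOf_dvd_card' p hpd
  have hxG : orderOf (x : G) = p := by rw [Subgroup.orderOf_coe, hx]
  have hexp : ∀ v ∈ V, v ^ p = 1 := by
    let W : Subgroup G :=
      { carrier := {v | v ∈ V ∧ v ^ p = 1}
        mul_mem' := by
          rintro a b ⟨ha, ha'⟩ ⟨hb, hb'⟩
          refine ⟨V.mul_mem ha hb, ?_⟩
          rw [(show Commute a b from hVab a ha b hb).mul_pow, ha', hb', one_mul]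
        one_mem' := ⟨V.one_mem, one_pow _⟩
        inv_mem' := by
          rintro a ⟨ha, ha'⟩
          exact ⟨V.inv_mem ha, by rw [inv_pow, ha', inv_one]⟩ }
    have hWn : W.Normal := ⟨by
      rintro a ⟨ha, ha'⟩ g
      exact ⟨hVn.conj_mem a ha g, by rw [conj_pow, ha']; group⟩⟩
    have hWV : W ≤ V := fun a ha => ha.1
    have hW0 : W ≠ ⊥ := by
      intro h0
      have h1 : (x : G) ∈ W := ⟨x.2, by rw [← hxG, pow_orderOf_eq_one]⟩
      rw [h0, mem_bot] at h1
      rw [h1, orderOf_one] at hxG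
      exact hp.one_lt.ne hxG
    have hWe := hmin W hWn hWV hW0
    intro v hv
    rw [← hWe] at hv
    exact hv.2
  have hVp : IsPGroup p V := by
    intro v
    refine ⟨1, ?_⟩
    apply Subtype.ext
    rw [pow_one, Subgroup.coe_pow, hexp _ v.2]; rfl
  have hLd : ∀ g : G, Nat.card (LL V hVab g) ∣ p := fun g => card_LL_dvd h hVp g
  have hLV : ∀ g : G, LL V hVab g ≤ V := fun g => LL_le g
  -- central case
  by_cases hcen : ∀ g : G, ∀ v ∈ V, g * v = v * g
  · refine ⟨zpowers (x : G), ⟨?_⟩, ?_, ?_⟩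
    · intro a ha g
      have haV : a ∈ V := (zpowers_le.2 x.2) ha
      rw [hcen g a haV, mul_inv_cancel_right]
      exact ha
    · exact (zpowers_le.2 x.2).trans hVR
    · rw [Nat.card_zpowers, hxG]; exact hp
  have hC : centralizer (V : Set G) ≠ ⊤ := by
    intro h1
    apply hcen
    intro g v hv
    have : g ∈ centralizer (V : Set G) := by rw [h1]; exact mem_top g
    exact (Subgroup.mem_centralizer_iff.1 this v hv).symm
  obtain ⟨A, hAn, hAC, hAA⟩ := exists_last_derived hs _ hC
  -- reformulations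
  have hcent : ∀ c : G, c ∈ centralizer (V : Set G) ↔ ∀ w ∈ V, c * w = w * c := by
    intro c
    rw [Subgroup.mem_centralizer_iff]
    exact ⟨fun h1 w hw => (h1 w hw).symm, fun h1 w hw => (h1 w hw).symm⟩
  have hne : ∀ a : G, a ∉ centralizer (V : Set G) → LL V hVab a ≠ ⊥ := by
    intro a ha
    rw [hcent] at ha
    push Not at ha
    obtain ⟨w, hw, hwa⟩ := ha
    exact LL_ne_bot hw (fun h1 => hwa h1.symm)
  have hcardL : ∀ a : G, a ∉ centralizer (V : Set G) → Nat.card (LL V hVab a) = p :=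
    fun a ha => card_eq_of_dvd_of_ne_bot (hLd a) (hne a ha)
  -- every `b ∈ A` normalizes `[V,a]`, `a ∈ A`
  have hF1 : ∀ a ∈ A, ∀ b ∈ A, ∀ y ∈ LL V hVab a, b * y * b⁻¹ ∈ LL V hVab a := by
    intro a ha b hb y hy
    obtain ⟨v, hv, hvy⟩ := mem_LL.1 (conj_mem_LL b hy)
    have hc : b * a * b⁻¹ * a⁻¹ ∈ centralizer (V : Set G) :=
      hAA (Subgroup.commutator_mem_commutator hb ha)
    have h1 : b * a * b⁻¹ = (b * a * b⁻¹ * a⁻¹) * a := by group
    rw [h1, comm_mul_left_of_cent ((hcent _).1 hc) hv] at hvy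
    exact mem_LL.2 ⟨v, hv, hvy⟩
  by_cases hcase : ∃ a ∈ A, a ∉ centralizer (V : Set G) ∧
      ∀ y ∈ LL V hVab a, y * a = a * y → y = 1
  · -- case 1
    obtain ⟨a, haA, haC, hfpf⟩ := hcase
    refine ⟨LL V hVab a, ⟨?_⟩, (hLV a).trans hVR, by rw [hcardL a haC]; exact hp⟩
    intro y hy g
    set a' := g * a * g⁻¹ with ha'
    have ha'A : a' ∈ A := hAn.conj_mem a haA g
    have hy' : g * y * g⁻¹ ∈ LL V hVab a' := conj_mem_LL g hy
    have hL'ne : LL V hVab a' ≠ ⊥ := by
      intro h0
      have hn := hne a haC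
      apply hn
      rw [eq_bot_iff]
      intro z hz
      have := conj_mem_LL (hV := hVab) g hz
      rw [← ha', h0, mem_bot] at this
      rw [mem_bot]
      have h2 : z = g⁻¹ * (g * z * g⁻¹) * g := by group
      rw [h2, this]; group
    have hcardL' : Nat.card (LL V hVab a') = p := card_eq_of_dvd_of_ne_bot (hLd a') hL'ne
    rcases le_or_inf_eq_bot (by rw [hcardL']; exact hp) (LL V hVab a) with h1 | h1
    · exact h1 hy'
    exfalso
    -- `a` centralizes `L'`
    have hc1 : ∀ z ∈ LL V hVab a', z * a = a * z := by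
      intro z hz
      have h2 : z * a * z⁻¹ * a⁻¹ ∈ LL V hVab a := mem_LL.2 ⟨z, hLV a' hz, rfl⟩
      have h3 : z * a * z⁻¹ * a⁻¹ ∈ LL V hVab a' := by
        have := (LL V hVab a').mul_mem hz (hF1 a' ha'A a haA _ ((LL V hVab a').inv_mem hz))
        convert this using 1
        group
      have h4 : z * a * z⁻¹ * a⁻¹ ∈ LL V hVab a' ⊓ LL V hVab a := ⟨h3, h2⟩
      rw [h1, mem_bot] at h4
      have : z * a = (z * a * z⁻¹ * a⁻¹) * (a * z) := by group
      rw [this, h4, one_mul]
    have hc2 : ∀ z ∈ LL V hVab a, z * a' = a' * z := by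
      intro z hz
      have h2 : z * a' * z⁻¹ * a'⁻¹ ∈ LL V hVab a' := mem_LL.2 ⟨z, hLV a hz, rfl⟩
      have h3 : z * a' * z⁻¹ * a'⁻¹ ∈ LL V hVab a := by
        have := (LL V hVab a).mul_mem hz (hF1 a haA a' ha'A _ ((LL V hVab a).inv_mem hz))
        convert this using 1
        group
      have h4 : z * a' * z⁻¹ * a'⁻¹ ∈ LL V hVab a' ⊓ LL V hVab a := ⟨h2, h3⟩
      rw [h1, mem_bot] at h4
      have : z * a' = (z * a' * z⁻¹ * a'⁻¹) * (a' * z) := by group
      rw [this, h4, one_mul]
    have hfpf' : ∀ z ∈ LL V hVab a', z * a' = a' * z → z = 1 := by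
      intro z hz hza
      have h2 : g⁻¹ * z * g⁻¹⁻¹ ∈ LL V hVab (g⁻¹ * a' * g⁻¹⁻¹) := conj_mem_LL g⁻¹ hz
      have h3 : g⁻¹ * a' * g⁻¹⁻¹ = a := by rw [ha']; group
      rw [h3] at h2
      have h4 : (g⁻¹ * z * g⁻¹⁻¹) * a = a * (g⁻¹ * z * g⁻¹⁻¹) := by
        calc (g⁻¹ * z * g⁻¹⁻¹) * a = g⁻¹ * (z * (g * a * g⁻¹)) * g := by group
          _ = g⁻¹ * ((g * a * g⁻¹) * z) * g := by rw [← ha', hza]
          _ = _ := by group
      have h5 := hfpf _ h2 h4
      have h6 : z = g * (g⁻¹ * z * g⁻¹⁻¹) * g⁻¹ := by group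
      rw [h6, h5]; group
    have e1 : LL V hVab a = LL V hVab (a * a') := by
      apply eq_LL_of_fpf (hLd _) (hLV a) (hne a haC)
      · intro z hz
        have h2 : a * a' * z * (a * a')⁻¹ = a * z * a⁻¹ := by
          calc a * a' * z * (a * a')⁻¹ = a * (a' * z) * a'⁻¹ * a⁻¹ := by group
            _ = a * (z * a') * a'⁻¹ * a⁻¹ := by rw [hc2 z hz]
            _ = _ := by group
        rw [h2]
        exact hF1 a haA a haA z hz
      · intro z hz hza
        apply hfpf z hz
        have h2 : z * a * a' = a * z * a' := by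
          calc z * a * a' = z * (a * a') := by group
            _ = a * a' * z := hza
            _ = a * (a' * z) := by group
            _ = a * (z * a') := by rw [hc2 z hz]
            _ = _ := by group
        exact mul_right_cancel h2
    have e2 : LL V hVab a' = LL V hVab (a * a') := by
      apply eq_LL_of_fpf (hLd _) (hLV a') hL'ne
      · intro z hz
        have h3 := hF1 a' ha'A a' ha'A z hz
        have h2 : a * a' * z * (a * a')⁻¹ = a' * z * a'⁻¹ := by
          calc a * a' * z * (a * a')⁻¹ = (a * (a' * z * a'⁻¹)) * a⁻¹ := by group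
            _ = ((a' * z * a'⁻¹) * a) * a⁻¹ := by rw [hc1 _ h3]
            _ = _ := by group
        rw [h2]
        exact h3
      · intro z hz hza
        apply hfpf' z hz
        have h2 : a * (z * a') = a * (a' * z) := by
          calc a * (z * a') = (a * z) * a' := by group
            _ = (z * a) * a' := by rw [hc1 z hz]
            _ = z * (a * a') := by group
            _ = a * a' * z := hza
            _ = _ := by group
        exact mul_left_cancel h2
    rw [e2, ← e1, inf_idem] at h1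
    exact hne a haC h1
  · -- case 2
    exfalso
    push Not at hcase
    have hcen2 : ∀ a ∈ A, a ∉ centralizer (V : Set G) → ∀ y ∈ LL V hVab a, y * a = a * y := by
      intro a haA haC
      obtain ⟨y, hy, hya, hy1⟩ := hcase a haA haC
      rcases le_or_inf_eq_bot (by rw [hcardL a haC]; exact hp) (centralizer ({a} : Set G))
        with h1 | h1
      · intro z hz
        exact mem_cent_singleton.1 (h1 hz)
      · exfalso
        have : y ∈ LL V hVab a ⊓ centralizer ({a} : Set G) := ⟨hy, mem_cent_singleton.2 hya⟩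
        rw [h1, mem_bot] at this
        exact hy1 this
    obtain ⟨a, haA, haC⟩ := Set.not_subset.1 hAC
    have hall : ∀ b ∈ A, ∀ y ∈ LL V hVab a, y * b = b * y := by
      intro b hb
      by_cases hbC : b ∈ centralizer (V : Set G)
      · intro y hy
        exact ((hcent b).1 hbC y (hLV a hy)).symm
      rcases le_or_inf_eq_bot (by rw [hcardL a haC]; exact hp) (centralizer ({b} : Set G))
        with h1 | h1
      · intro z hz
        exact mem_cent_singleton.1 (h1 hz)
      · have e : LL V hVab a = LL V hVab b := by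
          apply eq_LL_of_fpf (hLd _) (hLV a) (hne a haC) (hF1 a haA b hb)
          intro z hz hzb
          have : z ∈ LL V hVab a ⊓ centralizer ({b} : Set G) := ⟨hz, mem_cent_singleton.2 hzb⟩
          rwa [h1, mem_bot] at this
        rw [e]
        exact hcen2 b hb hbC
    have := hAn
    have hW := hmin (V ⊓ centralizer (A : Set G)) inferInstance inf_le_left (by
      intro h0
      apply hne a haC
      rw [eq_bot_iff, ← h0]
      intro y hy
      refine Subgroup.mem_inf.2 ⟨hLV a hy, ?_⟩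
      rw [Subgroup.mem_centralizer_iff]
      intro b hb
      exact (hall b hb y hy).symm)
    apply hAC
    intro b hb
    rw [hcent]
    intro w hw
    rw [← hW] at hw
    exact Subgroup.mem_centralizer_iff.1 hw.2 b hb

end Cfsg.Agent.Lib.Helper26.SqFree
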